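import Groth.Agent.Ega1.ADualOpen
import Groth.Agent.PerfA.CompactPerf

/-!
# Thick subcategories and the right adjoint of `Rf_*`

* `thick_inverseImage`: the inverse image of a triangulated subcategory under a triangulated functor;
* `prop_of_isPerfect_affine`: on an affine scheme a thick subcategory containing `O` contains all perfect complexes;
* `prop_of_univ`: for `f : X ⟶ Y`, `Y` affine, a thick subcategory of `D(O_X)` containing the universal
  object over `O_Y` contains the universal object over every perfect complex.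
-/

set_option autoImplicit false

universe v v' u u₁ u₂

open CategoryTheory CategoryTheory.Limits Pretriangulated
open scoped ZeroObject

namespace Groth.Agent.Dual.H314.ThickUniv

section Abstract

variable {D : Type u₁} [Category.{v} D] [HasZeroObject D] [Preadditive D] [HasShift D ℤ]
  [∀ n : ℤ, (shiftFunctor D n).Additive] [Pretriangulated D]
  {D' : Type u₂} [Category.{v'} D'] [HasZeroObject D'] [Preadditive D'] [HasShift D' ℤ]
  [∀ n : ℤ, (shiftFunctor D' n).Additive] [Pretriangulated D']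

theorem isTriangulated_inverseImage (G : D ⥤ D') [G.CommShift ℤ] [G.IsTriangulated]
    (Q : ObjectProperty D') [Q.IsTriangulated] [Q.IsClosedUnderIsomorphisms] :
    (Q.inverseImage G).IsTriangulated where
  exists_zero := ⟨0, isZero_zero _, Q.prop_of_isZero (G.map_isZero (isZero_zero _))⟩
  isStableUnderShiftBy n := ⟨fun X hX =>
    Q.prop_of_iso ((G.commShiftIso n).app X).symm (Q.le_shift n _ hX)⟩
  ext₂' T hT h₁ h₃ := ObjectProperty.le_isoClosure _ _
    (Q.ext_of_isTriangulatedClosed₂ (G.mapTriangle.obj T) (G.map_distinguished T hT) h₁ h₃)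

variable (P : ObjectProperty D) [P.IsTriangulated] (G : P.FullSubcategory ⥤ D')
  [G.CommShift ℤ] [G.IsTriangulated] (Q : ObjectProperty D')

/-- Objects `K` of `P` with `G K` in `Q`. -/
def pushProp : ObjectProperty D := fun K => ∃ hK : P K, Q (G.obj ⟨K, hK⟩)

theorem isTriangulated_pushProp [P.IsClosedUnderIsomorphisms] [Q.IsTriangulated]
    [Q.IsClosedUnderIsomorphisms] : (pushProp P G Q).IsTriangulated := by
  have h0 : (Q.inverseImage G).IsTriangulated := isTriangulated_inverseImage G Q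
  have h1 : pushProp P G Q = ((Q.inverseImage G).ι ⋙ P.ι).essImage := by
    ext K
    constructor
    · rintro ⟨hK, h⟩
      exact ⟨⟨⟨K, hK⟩, h⟩, ⟨Iso.refl _⟩⟩
    · rintro ⟨⟨⟨K', hK'⟩, h⟩, ⟨e⟩⟩
      have hK : P K := P.prop_of_iso e hK'
      refine ⟨hK, Q.prop_of_iso (G.mapIso ?_) h⟩
      exact P.isoMk e
  rw [h1]
  infer_instance

end Abstract

open AlgebraicGeometry

attribute [local instance] HasDerivedCategory.standard

open Groth.Agent.Dcoh.DerSch Groth.Agent.Ega1.ADualUniv Groth.Agent.LoccohB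
open Groth.Agent.PerfA.PerfTri Groth.Agent.PerfA.Hyp1 Groth.Agent.PerfA

variable {X Y : Scheme.{u}}

/-- On an affine scheme a thick subcategory containing `O` contains all perfect complexes. -/
theorem prop_of_isPerfect_affine [IsAffine X] (T : ObjectProperty (DCoh.D X)) [T.IsTriangulated]
    [T.IsClosedUnderIsomorphisms] [T.IsStableUnderRetracts]
    (hT : T (DCoh.inD X (Coh.structureModule X))) (K : DCoh.D X) (hK : DCoh.IsPerfect K) : T K := by
  have e : DCoh.inD X (Coh.structureModule X) ≅ P 0 (⊤ : X.Opens) :=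
    (DerivedCategory.singleFunctor X.Modules 0).mapIso (UnitOU.unitIsoOU X)
  have hP : DCoh.IsPerfect (P 0 (⊤ : X.Opens)) := by
    refine PerfLocal.isPerfect_of_iso e (PerfLocal.isPerfect_inD_of_isFinLocFree ?_)
    exact PerfLocal.isFinLocFree_of_iso (coproductUniqueIso (fun _ : Fin 1 => Coh.structureModule X))
      (PerfLocal.isFinLocFree_freeMod X 1)
  exact PerfThick.prop_of_isPerfect (P 0 (⊤ : X.Opens)) hP
    (fun E hE h => CompactPerf.isZero_of_hom_OU_top E hE (fun m φ => h m φ)) T
    (T.prop_of_iso e hT) K hK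

/-- For `f : X ⟶ Y`, `Y` affine, and a thick subcategory `Q` of `D(O_X)` containing the universal
object over `O_Y`: `Q` contains the universal object over any perfect complex. -/
theorem prop_of_univ [CompactSpace X] [QuasiSeparatedSpace X] [IsAffine Y] (f : X ⟶ Y)
    [DCoh.HasRpush f] (Q : ObjectProperty (DCoh.D X)) [Q.IsTriangulated]
    [Q.IsClosedUnderIsomorphisms] [Q.IsStableUnderRetracts]
    {O : DCoh.D X} (hO : Univ f (DCoh.inD Y (Coh.structureModule Y)) O) (hQ : Q O)
    {K : DCoh.D Y} (hK : DCoh.IsPerfect K) {L : DCoh.D X} (hL : Univ f K L) : Q L := by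
  have hf : ∀ N : DCoh.D X, DCoh.IsQCohD N → DCoh.IsQCohD ((DCoh.Rpush f).obj N) :=
    fun N hN => S0998.result f N hN
  have := S1766.result X Y f hf
  set F : DCoh.DQCoh X ⥤ DCoh.DQCoh Y := ObjectProperty.lift DCoh.IsQCohD
    (ObjectProperty.ι DCoh.IsQCohD ⋙ DCoh.Rpush f) (fun K => hf K.obj K.property) with hF
  let a := F.rightAdjoint
  let adj : F ⊣ a := Adjunction.ofIsLeftAdjoint F
  obtain ⟨_, _, -⟩ := RpushTri.exists_isTriangulated_Rpush f
  let : a.CommShift ℤ := adj.rightAdjointCommShift ℤ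
  have : adj.CommShift ℤ := adj.commShift_of_leftAdjoint ℤ
  have : a.IsTriangulated := adj.isTriangulated_rightAdjoint
  let G : DCoh.DQCoh Y ⥤ DCoh.D X := a ⋙ (DCoh.IsQCohD (X := X)).ι
  let T : ObjectProperty (DCoh.D Y) := perf Y ⊓ pushProp DCoh.IsQCohD G Q
  have hG : (pushProp DCoh.IsQCohD G Q).IsTriangulated := isTriangulated_pushProp _ G Q
  have hT1 : T.IsTriangulated := inferInstance
  have hT2 : T.IsClosedUnderIsomorphisms := ⟨fun {K L} e ⟨h1, hK, h2⟩ =>
    ⟨PerfLocal.isPerfect_of_iso e h1, (DCoh.IsQCohD (X := Y)).prop_of_iso e hK,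
      Q.prop_of_iso (G.mapIso ((DCoh.IsQCohD (X := Y)).isoMk e)) h2⟩⟩
  have hT3 : T.IsStableUnderRetracts := ⟨fun {K L} r ⟨h1, hK, h2⟩ => by
    have h3 : DCoh.IsPerfect K := PerfThick.isPerfect_of_retract r.i r.r r.retract h1
    have h4 : DCoh.IsQCohD K := QCohD.isQCohD_of_isPerfect _ h3
    refine ⟨h3, h4, ?_⟩
    refine Q.prop_of_retract (Y := G.obj ⟨L, hK⟩)
      ⟨G.map (ObjectProperty.homMk r.i), G.map (ObjectProperty.homMk r.r), ?_⟩ h2
    rw [← G.map_comp, ← G.map_id]
    congr 1
    ext1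
    exact r.retract⟩
  have hOY : DCoh.IsPerfect (DCoh.inD Y (Coh.structureModule Y)) :=
    PerfLocal.isPerfect_inD_of_isFinLocFree
      (PerfLocal.isFinLocFree_of_iso (coproductUniqueIso (fun _ : Fin 1 => Coh.structureModule Y))
        (PerfLocal.isFinLocFree_freeMod Y 1))
  have hTO : T (DCoh.inD Y (Coh.structureModule Y)) := by
    refine ⟨hOY, QCohD.isQCohD_of_isPerfect _ hOY, ?_⟩
    obtain ⟨e⟩ := hO.unique (univ_of_adj (a := a) adj ⟨_, QCohD.isQCohD_of_isPerfect _ hOY⟩)
    exact Q.prop_of_iso e hQ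
  obtain ⟨-, hK', h⟩ := prop_of_isPerfect_affine T hTO K hK
  obtain ⟨e⟩ := (univ_of_adj (a := a) adj ⟨K, hK'⟩).unique hL
  exact Q.prop_of_iso e h

end Groth.Agent.Dual.H314.ThickUniv
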