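import Groth.Agent.LoccohB.AdAffine
import Groth.Agent.LoccohB.AdProj
import Groth.Agent.LoccohB.TildeLocD
import Groth.Agent.CurvesB.LciShriek
import Groth.Agent.Dual.H314.ThickUniv

/-!
# The right adjoint of `i_*` for a Koszul-regular closed immersion of affine Noetherian schemes

* `exists_lbc_iso`: `P` Noetherian, `φ : P → A` surjective with Koszul-regular kernel, `R` right adjoint of restriction
  of scalars: Zariski-locally on `A`, `R(P)` is a shift of `A`;
* `exists_restrict_iso`: the same for universal objects of `Spec φ` over the structure sheaf;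
* `isPerfect_of_univ_koszul`: universal objects over perfect complexes are perfect.
-/

set_option autoImplicit false

universe u

open CategoryTheory CategoryTheory.Limits AlgebraicGeometry Pretriangulated

attribute [local instance] HasDerivedCategory.standard

namespace Groth.Agent.Dual.H314.KosClosed

open Groth.Agent Groth.Agent.LoccohB Groth.Agent.CurvesB.LciShriek

/-- `R_φ(P)` is Zariski-locally a shift of `A`, `φ : P → A` surjective with Koszul-regular kernel. -/
theorem exists_lbc_iso {P A : Type u} [CommRing P] [CommRing A] [IsNoetherianRing P]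
    (φ : P →+* A) (hφ : Function.Surjective φ) (hI : LCI.IsKoszulRegularIdeal (RingHom.ker φ))
    (Rf : Dual.D P ⥤ Dual.D A) (adj : DRing.restrictD φ ⊣ Rf)
    [hL : ∀ f : A, DRing.HasLBaseChange (algebraMap A (Localization.Away f))]
    (q : PrimeSpectrum A) :
    ∃ (b : A) (_ : b ∉ q.asIdeal) (c : ℤ),
      Nonempty ((DRing.LBaseChange (algebraMap A (Localization.Away b))).obj
        (Rf.obj (Dual.inD P P)) ≅
          (Dual.inD (Localization.Away b) (Localization.Away b))⟦c⟧) := by
  obtain ⟨l, hl, -, -, hIl⟩ := GorLci.exists_isWeaklyRegular_atPrime (RingHom.ker φ) hI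
    (q.asIdeal.comap φ) (Ideal.ker_le_comap _)
  obtain ⟨g, l', hg, H⟩ := Flat2H.RegSpread.exists_away_generated_by_weaklyRegular (q.asIdeal.comap φ)
    (RingHom.ker φ) (Localization.AtPrime (q.asIdeal.comap φ)) l hl hIl
  obtain ⟨h1, h2⟩ := H (Localization.Away g) (Submonoid.powers g) (Submonoid.mem_powers g)
  let _ : Algebra P A := φ.toAlgebra
  have hloc : IsLocalization (Algebra.algebraMapSubmonoid A (Submonoid.powers g))
      (Localization.Away (φ g)) := by
    have : Algebra.algebraMapSubmonoid A (Submonoid.powers g) = Submonoid.powers (φ g) :=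
      Algebra.algebraMapSubmonoid_powers g
    rw [this]
    infer_instance
  let _ : Algebra (Localization.Away g) (Localization.Away (φ g)) :=
    (IsLocalization.map (M := Submonoid.powers g)
      (T := Algebra.algebraMapSubmonoid A (Submonoid.powers g))
      (Localization.Away (φ g)) φ (Submonoid.le_comap_map _)).toAlgebra
  have : IsScalarTower P (Localization.Away g) (Localization.Away (φ g)) := by
    refine IsScalarTower.of_algebraMap_eq fun x => ?_
    exact (IsLocalization.map_eq (M := Submonoid.powers g)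
      (T := Algebra.algebraMapSubmonoid A (Submonoid.powers g)) (Submonoid.le_comap_map _) x).symm
  exact ⟨φ g, hg, _, local_iso P A (Localization.Away g)
    (Localization.Away (φ g)) (Submonoid.powers g) hφ adj (l'.map (algebraMap _ _)) h1 h2⟩

open Groth.Agent.Dcoh.DerSch Groth.Agent.Ega1.ADualUniv
open Groth.Agent.PerfA.Restrict (restrictD)
open AdAffine

/-- If `M ⊗ B ≅ B[c]` then `M~|_{Spec B} ≅ O[c]`. -/
theorem nonempty_restrict_iso {A B : CommRingCat.{u}} (γ : A ⟶ B) (hγ : γ.hom.Flat)
    [IsOpenImmersion (Spec.map γ)] [DRing.HasLBaseChange γ.hom] {M : Dual.D A} {c : ℤ}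
    (e : (DRing.LBaseChange γ.hom).obj M ≅ (Dual.inD B B)⟦c⟧) {L : DCoh.D (Spec A)}
    (eL : (tD A).obj M ≅ L) :
    Nonempty ((restrictD (Spec.map γ)).obj L ≅ (DCoh.inD (Spec B) (Coh.structureModule (Spec B)))⟦c⟧) :=
  ⟨(restrictD (Spec.map γ)).mapIso eL.symm ≪≫ (TildeLocD.tildeDRestrictIso γ hγ).app _ ≪≫
    (tD B).mapIso ((FlatLBC.LBaseChangeIso γ.hom hγ).symm.app _ ≪≫ e) ≪≫
    ((tD B).commShiftIso c).app _ ≪≫ (shiftFunctor _ c).mapIso (AdProj.isoO B)⟩

variable {P A : CommRingCat.{u}} (φ : P ⟶ A) (hφ : Function.Surjective φ.hom)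
  (hI : LCI.IsKoszulRegularIdeal (RingHom.ker φ.hom))

include hφ hI in
/-- The universal object of `Spec φ` over the structure sheaf is Zariski-locally a shift of the
structure sheaf. -/
theorem exists_restrict_iso [IsNoetherianRing P] [DCoh.HasRpush (Spec.map φ)]
    {L : DCoh.D (Spec A)}
    (hL : Ega1.ADualUniv.Univ (Spec.map φ) (DCoh.inD (Spec P) (Coh.structureModule (Spec P))) L)
    (x : Spec A) :
    ∃ (B : CommRingCat.{u}) (j : Spec B ⟶ Spec A) (_ : IsOpenImmersion j) (c : ℤ),
      x ∈ Set.range j ∧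
      Nonempty ((restrictD j).obj L ≅ (DCoh.inD (Spec B) (Coh.structureModule (Spec B)))⟦c⟧) := by
  have h0 : ∀ f : A, DRing.HasLBaseChange (algebraMap A (Localization.Away f)) :=
    fun f => LBC.hasLBaseChange _
  obtain ⟨b, hb, c, ⟨e⟩⟩ := exists_lbc_iso φ.hom hφ hI _ (RAdj.coextAdj φ.hom) x
  obtain ⟨e₁⟩ := nonempty_iso_radj φ hφ hL (Dual.inD P P) (AdProj.isoO P) (RAdj.coextAdj φ.hom)
  have hγ : (algebraMap A (Localization.Away b)).Flat := by
    have : Module.Flat A (Localization.Away b) := IsLocalization.flat _ (Submonoid.powers b)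
    exact RingHom.flat_algebraMap_iff.2 this
  refine ⟨CommRingCat.of (Localization.Away b),
    Spec.map (CommRingCat.ofHom (algebraMap A (Localization.Away b))), inferInstance, c, ?_, ?_⟩
  · have : x ∈ Set.range (PrimeSpectrum.comap (algebraMap A (Localization.Away b))) := by
      rw [PrimeSpectrum.localization_away_comap_range (Localization.Away b) b]
      exact hb
    exact this
  · have : DRing.HasLBaseChange (CommRingCat.ofHom (algebraMap A (Localization.Away b))).hom := h0 b
    exact nonempty_restrict_iso (CommRingCat.ofHom (algebraMap A (Localization.Away b))) hγ e e₁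

include hφ hI in
/-- Universal objects of `Spec φ` over perfect complexes are perfect. -/
theorem isPerfect_of_univ_koszul [IsNoetherianRing P] [DCoh.HasRpush (Spec.map φ)]
    {K : DCoh.D (Spec P)} (hK : DCoh.IsPerfect K) {L : DCoh.D (Spec A)}
    (hL : Ega1.ADualUniv.Univ (Spec.map φ) K L) : DCoh.IsPerfect L := by
  obtain ⟨O, hO⟩ := Ega1.ADualOpen.exists_univ (Spec.map φ) (DCoh.inD (Spec P) (Coh.structureModule (Spec P)))
    (PerfA.QCohD.isQCohD_of_isPerfect _ (AdPnCoprod294.isPerfect_structureModule _))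
  refine ThickUniv.prop_of_univ (Spec.map φ) (PerfA.PerfTri.perf (Spec A)) hO ?_ hK hL
  refine PerfA.PerfLocal.isPerfect_of_restrictD O fun x => ?_
  obtain ⟨B, j, hj, c, ⟨y, hy⟩, ⟨e⟩⟩ := exists_restrict_iso φ hφ hI hO x
  exact ⟨Spec B, j, hj, y, hy, PerfA.PerfLocal.isPerfect_of_iso e.symm
    (PerfA.PerfLocal.isPerfect_shift (AdPnCoprod294.isPerfect_structureModule _) c)⟩

end Groth.Agent.Dual.H314.KosClosed
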