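import Groth.Agent.Dual.H314.KosClosed
import Groth.Agent.LoccohB.AdMain
import Groth.Prelude.Def_Dual3

/-!
# Upper shriek of perfect complexes for local complete intersection morphisms

* `isPerfect_of_univ_projSpace`: for `π : P^n_R ⟶ Spec R`, universal objects over perfect complexes are perfect.
* `exists_chart`: `f̄ : X̄ ⟶ Y` proper, `j : X ⟶ X̄` open, `f = j ≫ f̄` lci, `M` universal for `(f̄, K)`: every point
  of `X` has an open neighbourhood `Spec B`, with a closed immersion `Spec ψ : Spec B ⟶ A^n_A`, `A → B` surjective with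
  Koszul-regular kernel, such that `M|_{Spec B}` is universal for `(Spec ψ, L|_{A^n_A})`, `L` universal for
  `(P^n_A ⟶ Spec A, K|_{Spec A})`.
* `isPerfect_of_univ_lci`.
-/

set_option autoImplicit false

universe u

open CategoryTheory CategoryTheory.Limits AlgebraicGeometry Pretriangulated

attribute [local instance] HasDerivedCategory.standard

namespace Groth.Agent.Dual.H314.PerfLci

open Groth.Agent Groth.Agent.LoccohB
open Groth.Agent.Dcoh.DerSch Groth.Agent.Ega1.ADualUniv Groth.Agent.Ega1.ADualOpen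
open Groth.Agent.PerfA.Restrict (restrictD)
open Groth.Agent.PerfA.PerfLocal (restrictDComp restrictDCongr)

/-- For `π : P^n_R ⟶ Spec R`, universal objects over perfect complexes are perfect. -/
theorem isPerfect_of_univ_projSpace (n : ℕ) (R : Type u) [CommRing R]
    [DCoh.HasRpush (CohB1.ProjSpace.toSpec n R)] {K : DCoh.D (Spec (CommRingCat.of R))}
    (hK : DCoh.IsPerfect K) {L : DCoh.D (CohB1.ProjSpace n R)}
    (hL : Ega1.ADualUniv.Univ (CohB1.ProjSpace.toSpec n R) K L) : DCoh.IsPerfect L := by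
  have := AdPnCoprod294.compactSpace n R
  have := AdPnCoprod294.quasiSeparatedSpace n R
  have hf : ∀ N : DCoh.D (CohB1.ProjSpace n R), DCoh.IsQCohD N →
      DCoh.IsQCohD ((DCoh.Rpush (CohB1.ProjSpace.toSpec n R)).obj N) :=
    fun N hN => S0998.result (CohB1.ProjSpace.toSpec n R) N hN
  have := S1766.result _ _ (CohB1.ProjSpace.toSpec n R) hf
  let adj := Adjunction.ofIsLeftAdjoint (ObjectProperty.lift DCoh.IsQCohD
    (ObjectProperty.ι DCoh.IsQCohD ⋙ DCoh.Rpush (CohB1.ProjSpace.toSpec n R))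
      (fun K => hf K.obj K.property))
  have hq : DCoh.IsQCohD (DCoh.inD (Spec (CommRingCat.of R)) (Coh.structureModule (Spec (CommRingCat.of R)))) :=
    PerfA.QCohD.isQCohD_of_isPerfect _ (AdPnCoprod294.isPerfect_structureModule _)
  let O : DCoh.DQCoh (Spec (CommRingCat.of R)) := ⟨_, hq⟩
  obtain ⟨e⟩ := S1824.result n R hf _ adj O ⟨Iso.refl _⟩
  refine ThickUniv.prop_of_univ (CohB1.ProjSpace.toSpec n R) (PerfA.PerfTri.perf _)
    (univ_of_adj adj O) ?_ hK hL
  exact PerfA.PerfLocal.isPerfect_of_iso e.symm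
    (PerfA.PerfLocal.isPerfect_shift (AdPnCoprod294.isPerfect_tw n R _) _)

variable {X Xbar Y : Scheme.{u}}

/-- Local form of universal objects for an lci morphism. -/
theorem exists_chart [IsNoetherian Y] (fbar : Xbar ⟶ Y) [IsProper fbar] [DCoh.HasRpush fbar]
    (j : X ⟶ Xbar) [IsOpenImmersion j] (hf : Dual3.IsLCIMor (j ≫ fbar))
    {K : DCoh.D Y} (hK : DCoh.IsQCohD K) (c : ℤ) (hKc : K.IsGE c) {M : DCoh.D Xbar}
    (hM : Ega1.ADualUniv.Univ fbar K M) (x : X) :
    ∃ (A : Type u) (_ : CommRing A) (_ : IsNoetherianRing A) (n : ℕ)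
      (_ : DCoh.HasRpush (CohB1.ProjSpace.toSpec n A))
      (jA : Spec (CommRingCat.of A) ⟶ Y) (_ : IsOpenImmersion jA)
      (B : CommRingCat.{u}) (jB : Spec B ⟶ X) (_ : IsOpenImmersion jB)
      (ψ : CommRingCat.of (MvPolynomial (Fin n) A) ⟶ B) (_ : DCoh.HasRpush (Spec.map ψ))
      (L : DCoh.D (CohB1.ProjSpace n A)),
      (∃ y, jB y = x) ∧ Function.Surjective ψ.hom ∧
      LCI.IsKoszulRegularIdeal (RingHom.ker ψ.hom) ∧
      Spec.map ψ ≫ Spec.map (CommRingCat.ofHom (MvPolynomial.C : A →+* MvPolynomial (Fin n) A)) ≫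
        jA = jB ≫ j ≫ fbar ∧
      Ega1.ADualUniv.Univ (CohB1.ProjSpace.toSpec n A) ((restrictD jA).obj K) L ∧
      Ega1.ADualUniv.Univ (Spec.map ψ) ((restrictD (Sga5.ProjSmooth.chart n A 0)).obj L)
        ((restrictD jB).obj ((restrictD j).obj M)) := by
  obtain ⟨U, V, e, hx, hl⟩ := hf x
  let A : Type u := Γ(Y, V.1)
  let B : CommRingCat.{u} := Γ(X, U.1)
  let φ : Γ(Y, V.1) ⟶ Γ(X, U.1) := (j ≫ fbar).appLE V.1 U.1 e
  let jA : Spec (CommRingCat.of A) ⟶ Y := V.2.fromSpec
  let jB : Spec B ⟶ X := U.2.fromSpec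
  have hcomm : jB ≫ j ≫ fbar = Spec.map φ ≫ jA :=
    (IsAffineOpen.SpecMap_appLE_fromSpec (j ≫ fbar) V.2 U.2 e).symm
  let algAB : Algebra Γ(Y, V.1) Γ(X, U.1) := φ.hom.toAlgebra
  obtain ⟨-, n, θ, hθ, hI⟩ : LCI.IsLCI Γ(Y, V.1) Γ(X, U.1) := hl
  have hA : IsNoetherianRing A := IsLocallyNoetherian.component_noetherian V
  let P : CommRingCat.{u} := CommRingCat.of (MvPolynomial (Fin n) A)
  let ψ : P ⟶ B := CommRingCat.ofHom θ.toRingHom
  have hψ : Function.Surjective ψ.hom := hθ
  have hcl : IsClosedImmersion (Spec.map ψ) := IsClosedImmersion.spec_of_surjective ψ hψ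
  let π := CohB1.ProjSpace.toSpec n A
  have hπ : IsProper π := Ega3B.ProjProper.isProper_toSpec n A
  have : DCoh.HasRpush π := hasRpush π
  have : DCoh.HasRpush (Spec.map ψ) := hasRpush (Spec.map ψ)
  let l : Spec P ⟶ CohB1.ProjSpace n A := Sga5.ProjSmooth.chart n A 0
  have hl' : IsOpenImmersion l := inferInstanceAs (IsOpenImmersion (Sga5.ProjSmooth.chart n A 0))
  have hlπ : l ≫ π = Spec.map (CommRingCat.ofHom (MvPolynomial.C : A →+* MvPolynomial (Fin n) A)) :=
    Sga5.ProjSmooth.chart_toSpec n A 0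
  have hψφ : Spec.map ψ ≫ l ≫ π = Spec.map φ := by
    rw [hlπ, ← Spec.map_comp]
    congr 1
    ext r
    exact θ.commutes r
  -- restriction to `Spec A`
  have hp : IsPullback (pullback.fst fbar jA) (pullback.snd fbar jA) fbar jA :=
    IsPullback.of_hasPullback fbar jA
  have : DCoh.HasRpush (pullback.snd fbar jA) := hasRpush _
  have hSA : IsNoetherian (Spec (CommRingCat.of A)) := AdStruct.isNoetherian_of_finiteType jA
  have h1 := Univ.restrict fbar hp hK c hKc hM
  have hKA : DCoh.IsQCohD ((restrictD jA).obj K) := PerfA.QCohD.isQCohD_restrictD jA hK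
  have hKAc : ((restrictD jA).obj K).IsGE c := PerfA.ExactD.isGE_map _ _ _
  have hP : IsNoetherian (CohB1.ProjSpace n A) := AdStruct.isNoetherian_of_finiteType π
  obtain ⟨L, hL⟩ := exists_univ π _ hKA
  let jZ : Spec B ⟶ pullback fbar jA := pullback.lift (jB ≫ j) (Spec.map φ) (by
    rw [Category.assoc, hcomm])
  have hjZ₁ : jZ ≫ pullback.fst fbar jA = jB ≫ j := pullback.lift_fst _ _ _
  have hjZ₂ : jZ ≫ pullback.snd fbar jA = Spec.map φ := pullback.lift_snd _ _ _
  have hjB : IsOpenImmersion jB := inferInstanceAs (IsOpenImmersion U.2.fromSpec)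
  have hjZ : IsOpenImmersion jZ := by
    have : IsOpenImmersion (jZ ≫ pullback.fst fbar jA) := by
      rw [hjZ₁]; infer_instance
    exact IsOpenImmersion.of_comp jZ (pullback.fst fbar jA)
  have h2 := AdStruct.Univ.structure (pullback.snd fbar jA) π jZ l (Spec.map ψ)
    (hψφ.trans hjZ₂.symm) hKA c hKAc h1 hL
  have h3 := h2.of_iso_left ((restrictDComp jZ (pullback.fst fbar jA)).app M ≪≫
    (restrictDCongr hjZ₁).app M ≪≫ (restrictDComp jB j).symm.app M)
    (PerfA.QCohD.isQCohD_restrictD _ (PerfA.QCohD.isQCohD_restrictD _ hM.qcoh))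
  refine ⟨A, inferInstance, hA, n, inferInstance, jA, inferInstance, B, jB, inferInstance, ψ,
    inferInstance, L, ?_, hψ, hI, ?_, hL, h3⟩
  · have : x ∈ Set.range U.2.fromSpec := by
      rw [IsAffineOpen.range_fromSpec]
      exact hx
    exact this
  · rw [hcomm, ← hψφ, Category.assoc, ← hlπ, Category.assoc]

/-- Universal objects over perfect complexes for the compactification of an lci morphism are perfect on the open part. -/
theorem isPerfect_of_univ_lci [IsNoetherian Y] (fbar : Xbar ⟶ Y) [IsProper fbar]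
    [DCoh.HasRpush fbar] (j : X ⟶ Xbar) [IsOpenImmersion j] (hf : Dual3.IsLCIMor (j ≫ fbar))
    {K : DCoh.D Y} (hK : DCoh.IsPerfect K) (c : ℤ) (hKc : K.IsGE c) {M : DCoh.D Xbar}
    (hM : Ega1.ADualUniv.Univ fbar K M) : DCoh.IsPerfect ((restrictD j).obj M) := by
  refine PerfA.PerfLocal.isPerfect_of_restrictD _ fun x => ?_
  obtain ⟨A, _, _, n, _, jA, _, B, jB, _, ψ, _, L, ⟨y, hy⟩, hψ, hI, -, hL, h⟩ :=
    exists_chart fbar j hf (PerfA.QCohD.isQCohD_of_isPerfect _ hK) c hKc hM x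
  refine ⟨_, jB, inferInstance, y, hy, ?_⟩
  have h1 : DCoh.IsPerfect L := isPerfect_of_univ_projSpace n A
    (PerfA.PerfLocal.isPerfect_restrictD jA hK) hL
  have h2 : DCoh.IsPerfect ((restrictD (Sga5.ProjSmooth.chart n A 0)).obj L) :=
    PerfA.PerfLocal.isPerfect_restrictD _ h1
  have : IsNoetherianRing (CommRingCat.of (MvPolynomial (Fin n) A)) :=
    inferInstanceAs (IsNoetherianRing (MvPolynomial (Fin n) A))
  exact KosClosed.isPerfect_of_univ_koszul ψ hψ hI h2 h

end Groth.Agent.Dual.H314.PerfLci
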